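import Cfsg.Agent.Lib.FGS.Sylow
import Cfsg.Agent.Lib.Transfer.Tate
import Cfsg.Agent.Lib.Transfer.Alperin
import Cfsg.Agent.Lib.Clifford.Degree

/-! Characters of a Sylow normalizer that extend to the whole group. -/

set_option autoImplicit false

namespace Cfsg.Lib.Clifford

open Cfsg Cfsg.Lib.Char Cfsg.Lib.Transfer Subgroup
open scoped commutatorElement

variable {G : Type*} [Group G] [Finite G] {p : ℕ}

/-- If the characters of `N / D` extend to `G`, then `⟨D^G⟩ ∩ N = D`. -/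
theorem normalClosure_inf_eq {N D : Subgroup G} (hD : D ≤ N) [(D.subgroupOf N).Normal]
    (hext : ∀ θ : N → ℂ, IsIrrCharacter N θ → (∀ x ∈ D.subgroupOf N, θ x = θ 1) →
      ∃ χ : G → ℂ, IsCharacter G χ ∧ ∀ x : N, χ x = θ x) :
    normalClosure (D : Set G) ⊓ N = D := by
  refine le_antisymm (fun x hx => ?_) (le_inf le_normalClosure hD)
  by_contra hxD
  obtain ⟨θ, h1, h2, h3⟩ := exists_irr_ker_ge_apply_ne (D.subgroupOf N) (g := ⟨x, hx.2⟩) hxD
  obtain ⟨χ, h4, h5⟩ := hext θ h1 h2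
  haveI := h4.charKer_normal
  have h6 : normalClosure (D : Set G) ≤ charKer χ := normalClosure_le_normal fun y hy =>
    h4.mem_charKer_iff.2 (by
      rw [h5 ⟨y, hD hy⟩, h2 ⟨y, hD hy⟩ hy]
      exact (h5 1).symm)
  exact h3 (by rw [← h5, ← h5]; exact h4.mem_charKer_iff.1 (h6 hx.1))

theorem npc_of_normal [Fact p.Prime] (P : Sylow p G) (R : Subgroup G) [R.Normal]
    (h1 : R ⊓ P ≤ ⁅(P : Subgroup G), (P : Subgroup G)⁆)
    (h2 : ⁅(P : Subgroup G), (P : Subgroup G)⁆ ≤ R)
    (h3 : normalizer ((P : Subgroup G) : Set G) ≤ R ⊔ P) : HasNormalPComplement p G := by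
  have hf := QuotientGroup.mk'_surjective R
  have h4 : HasNormalPComplement p (G ⧸ R) := by
    refine hasNormalPComplement_of_normalizer_le_centralizer (P.mapSurjective hf) ?_
    have h5 := Cfsg.Lib.FGS.comap_normalizer_map_sylow hf P
    have h6 : normalizer (((P : Subgroup G).map (QuotientGroup.mk' R) : Subgroup (G ⧸ R)) :
        Set (G ⧸ R)) ≤ (P : Subgroup G).map (QuotientGroup.mk' R) := by
      rw [← map_comap_eq_self_of_surjective hf (normalizer _), h5, QuotientGroup.ker_mk']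
      refine (map_mono (sup_le h3 le_sup_left)).trans ?_
      rw [Subgroup.map_sup, (Subgroup.map_eq_bot_iff _).2 (QuotientGroup.ker_mk' R).ge, bot_sup_eq]
    refine h6.trans ?_
    change _ ≤ centralizer (((P : Subgroup G).map (QuotientGroup.mk' R) : Subgroup (G ⧸ R)) :
      Set (G ⧸ R))
    rw [← commutator_eq_bot_iff_le_centralizer, ← map_commutator, Subgroup.map_eq_bot_iff,
      QuotientGroup.ker_mk']
    exact h2
  rw [hasNormalPComplement_iff_pResidual_inf_sylow (P.mapSurjective hf)] at h4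
  refine hasNormalPComplement_of_pResidual_inf_le_frattini P (le_trans (fun x hx => h1 ⟨?_, hx.2⟩)
    (PGroup.commutator_le_map_subtype_frattini P.2))
  change x ∈ R
  rw [← QuotientGroup.eq_one_iff, ← mem_bot, ← h4]
  exact ⟨map_pResidual_le (QuotientGroup.mk' R) ⟨x, hx.1, rfl⟩, x, hx.2, rfl⟩

/-- `R ≤ M`, `R ∩ P = P'` and `N_M(P) ≤ R P` force `M` to have a normal `p`-complement. -/
theorem npc_of_le [Fact p.Prime] (P : Sylow p G) (R M : Subgroup G) [R.Normal]
    (hRM : R ≤ M) (hPM : (P : Subgroup G) ≤ M)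
    (h1 : R ⊓ P ≤ ⁅(P : Subgroup G), (P : Subgroup G)⁆)
    (h2 : ⁅(P : Subgroup G), (P : Subgroup G)⁆ ≤ R)
    (h3 : M ⊓ normalizer ((P : Subgroup G) : Set G) ≤ R ⊔ P) : HasNormalPComplement p M := by
  have e : ⁅(P : Subgroup G).subgroupOf M, (P : Subgroup G).subgroupOf M⁆ =
      ⁅(P : Subgroup G), (P : Subgroup G)⁆.subgroupOf M := by
    apply map_injective M.subtype_injective
    rw [map_commutator, map_subgroupOf_eq_of_le hPM,
      map_subgroupOf_eq_of_le ((commutator_le_sup _ _).trans (sup_le hPM hPM))]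
  refine npc_of_normal (P.subtype hPM) (R.subgroupOf M) ?_ ?_ ?_
  · rw [Sylow.coe_subtype, e]
    exact fun x hx => h1 hx
  · rw [Sylow.coe_subtype, e]
    exact fun x hx => h2 hx
  · rw [Sylow.coe_subtype, ← subgroupOf_sup hRM hPM, ← subgroupOf_normalizer_eq hPM]
    exact fun x hx => h3 ⟨x.2, hx⟩

end Cfsg.Lib.Clifford
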